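import Mathlib

/-!
A group with the class sizes (with multiplicities) of a nilpotent group is nilpotent.

For a prime `p` one counts the elements whose class size is prime to `p`. Counting modulo `p` gives
`Z(P) = P ∩ Z(G)`, and then the count is too large unless the Sylow subgroup is normal.
-/

set_option autoImplicit false

namespace CfsgLib.SameClassSizes

open scoped Pointwise

/-- Class size of an element. -/
noncomputable def csize {G : Type*} [Group G] (x : G) : ℕ := Nat.card (ConjClasses.mk x).carrier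

lemma csize_eq_index {G : Type*} [Group G] (x : G) :
    csize x = (Subgroup.centralizer ({x} : Set G)).index := by
  rw [csize, Subgroup.index, ← ConjAct.orbit_eq_carrier_conjClasses,
    Nat.card_congr (MulAction.orbitEquivQuotientStabilizer (ConjAct G) x),
    ConjAct.stabilizer_eq_centralizer]
  rfl

lemma csize_eq_one_iff {G : Type*} [Group G] (x : G) : csize x = 1 ↔ x ∈ Subgroup.center G := by
  rw [csize_eq_index, Subgroup.index_eq_one, Subgroup.centralizer_eq_top_iff_subset,
    Set.singleton_subset_iff, SetLike.mem_coe]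

/-- A bijection preserving class sizes. -/
theorem exists_equiv {G H : Type*} [Group G] [Finite G] [Group H] [Finite H]
    (h : ∀ k : ℕ, Nat.card {C : ConjClasses G // Nat.card C.carrier = k} =
      Nat.card {C : ConjClasses H // Nat.card C.carrier = k}) :
    ∃ e : G ≃ H, ∀ x, csize (e x) = csize x := by
  classical
  let eC : ConjClasses G ≃ ConjClasses H := Equiv.ofFiberEquiv fun k => (Finite.card_eq.1 (h k)).some
  have hC : ∀ C, Nat.card (eC C).carrier = Nat.card C.carrier := fun C =>
    Equiv.ofFiberEquiv_map (fun k => (Finite.card_eq.1 (h k)).some) C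
  have hf : ∀ C : ConjClasses G, Nat.card {x : G // ConjClasses.mk x = C} = Nat.card C.carrier := fun C =>
    Nat.card_congr (Equiv.subtypeEquivRight fun x => ConjClasses.mem_carrier_iff_mk_eq.symm)
  have hf' : ∀ C : ConjClasses H, Nat.card {x : H // ConjClasses.mk x = C} = Nat.card C.carrier := fun C =>
    Nat.card_congr (Equiv.subtypeEquivRight fun x => ConjClasses.mem_carrier_iff_mk_eq.symm)
  let e1 : ∀ C, {x : G // ConjClasses.mk x = C} ≃ {x : H // ConjClasses.mk x = eC C} := fun C =>
    (Finite.card_eq.1 (by rw [hf, hf', hC])).some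
  refine ⟨(Equiv.sigmaFiberEquiv ConjClasses.mk).symm.trans
    ((Equiv.sigmaCongr eC e1).trans (Equiv.sigmaFiberEquiv ConjClasses.mk)), fun x => ?_⟩
  have h1 : ConjClasses.mk ((e1 (ConjClasses.mk x) ⟨x, rfl⟩ : {y : H // ConjClasses.mk y = eC (ConjClasses.mk x)}) : H) =
      eC (ConjClasses.mk x) := (e1 (ConjClasses.mk x) ⟨x, rfl⟩).2
  show csize ((e1 (ConjClasses.mk x) ⟨x, rfl⟩).1) = csize x
  unfold csize
  rw [h1, hC]

/-- Elements with class size prime to `p`. -/
noncomputable def cnt (p : ℕ) (G : Type*) [Group G] : ℕ := Nat.card {x : G // ¬ p ∣ csize x}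

section

variable {G : Type*} [Group G] [Finite G] {p : ℕ} [Fact p.Prime]

lemma exists_sylow_le {x : G} (hx : ¬ p ∣ csize x) :
    ∃ Q : Sylow p G, (Q : Subgroup G) ≤ Subgroup.centralizer ({x} : Set G) := by
  rw [csize_eq_index] at hx
  set C := Subgroup.centralizer ({x} : Set G)
  obtain ⟨R⟩ : Nonempty (Sylow p C) := inferInstance
  refine ⟨Sylow.ofCard ((R : Subgroup C).map C.subtype) ?_, ?_⟩
  · rw [Subgroup.card_map_of_injective C.subtype_injective, R.card_eq_multiplicity,
      ← Subgroup.card_mul_index C, Nat.factorization_mul Nat.card_pos.ne' Subgroup.index_ne_zero_of_finite,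
      Finsupp.add_apply, Nat.factorization_eq_zero_of_not_dvd hx, add_zero]
  · rw [Sylow.coe_ofCard]
    exact Subgroup.map_subtype_le _

lemma not_dvd_of_le {x : G} (Q : Sylow p G) (h : (Q : Subgroup G) ≤ Subgroup.centralizer ({x} : Set G)) :
    ¬ p ∣ csize x := by
  rw [csize_eq_index]
  exact fun hd => Q.not_dvd_index (hd.trans (Subgroup.index_dvd_of_le h))

lemma le_cent_iff {P : Subgroup G} {x : G} :
    P ≤ Subgroup.centralizer ({x} : Set G) ↔ x ∈ Subgroup.centralizer (P : Set G) := by
  rw [Subgroup.mem_centralizer_iff]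
  exact ⟨fun h w hw => Subgroup.mem_centralizer_singleton_iff.1 (h hw),
    fun h w hw => Subgroup.mem_centralizer_singleton_iff.2 (h w hw)⟩

/-- The count in a nilpotent group. -/
theorem cnt_nilpotent (hG : Group.IsNilpotent G) :
    cnt p G ≠ 0 ∧ (cnt p G).factorization p = (Nat.card (Subgroup.center G)).factorization p ∧
      ∀ q : ℕ, q.Prime → q ≠ p → (cnt p G).factorization q = (Nat.card G).factorization q := by
  haveI := hG
  obtain ⟨P⟩ : Nonempty (Sylow p G) := inferInstance
  have hn : ∀ (q : ℕ) [Fact q.Prime] (Q : Sylow q G), (Q : Subgroup G).Normal := by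
    intro q hq Q
    have h03 : Group.IsNilpotent G ↔ ∀ (r : ℕ) (_ : Fact r.Prime) (R : Sylow r G), (R : Subgroup G).Normal :=
      (Group.isNilpotent_of_finite_tfae (G := G)).out 0 3
    exact h03.1 hG q hq Q
  haveI := hn p P
  haveI := Sylow.unique_of_normal P ‹_›
  set C := Subgroup.centralizer ((P : Subgroup G) : Set G)
  have hcnt : cnt p G = Nat.card C := Nat.card_congr (Equiv.subtypeEquivRight fun x => by
    refine ⟨fun hx => ?_, fun hx => not_dvd_of_le P (le_cent_iff.2 hx)⟩
    obtain ⟨Q, hQ⟩ := exists_sylow_le hx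
    rw [Subsingleton.elim Q P] at hQ
    exact le_cent_iff.1 hQ)
  have hother : ∀ q : ℕ, q.Prime → q ≠ p → (Nat.card C).factorization q = (Nat.card G).factorization q := by
    intro q hq hqp
    haveI : Fact q.Prime := ⟨hq⟩
    obtain ⟨Q⟩ : Nonempty (Sylow q G) := inferInstance
    have hQC : (Q : Subgroup G) ≤ C := fun a ha => Subgroup.mem_centralizer_iff.2 fun b hb =>
      Subgroup.commute_of_normal_of_disjoint _ _ (hn p P) (hn q Q)
        (IsPGroup.disjoint_of_ne p q (Ne.symm hqp) _ _ P.isPGroup' Q.isPGroup') b a hb ha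
    refine le_antisymm ((Nat.factorization_le_iff_dvd Nat.card_pos.ne' Nat.card_pos.ne').2
      C.card_subgroup_dvd_card q) ((hq.pow_dvd_iff_le_factorization Nat.card_pos.ne').1 ?_)
    rw [← Q.card_eq_multiplicity]
    exact Subgroup.card_dvd_of_le hQC
  refine ⟨hcnt ▸ Nat.card_pos.ne', ?_, hcnt ▸ hother⟩
  rw [hcnt]
  obtain ⟨R⟩ : Nonempty (Sylow p C) := inferInstance
  have hRZ : (R : Subgroup C).map C.subtype ≤ Subgroup.center G := by
    rintro a ⟨r, hr, rfl⟩
    have hra : (r : G) ∈ (P : Subgroup G) := by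
      obtain ⟨Q, hQ⟩ := (R.isPGroup'.map C.subtype).exists_le_sylow
      have h2 := hQ ⟨r, hr, rfl⟩
      rwa [Subsingleton.elim Q P] at h2
    refine Subgroup.mem_center_iff.2 fun g => ?_
    have htop : Subgroup.centralizer ({(r : G)} : Set G) = ⊤ := by
      refine Subgroup.eq_top_of_card_eq _ (Nat.dvd_antisymm (Subgroup.card_subgroup_dvd_card _) ?_)
      rw [← Nat.factorization_le_iff_dvd Nat.card_pos.ne' Nat.card_pos.ne']
      intro q
      by_cases hq : q.Prime
      · haveI : Fact q.Prime := ⟨hq⟩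
        refine (hq.pow_dvd_iff_le_factorization Nat.card_pos.ne').1 ?_
        by_cases hqp : q = p
        · subst hqp
          rw [← P.card_eq_multiplicity]
          exact Subgroup.card_dvd_of_le (le_cent_iff.2 r.2)
        · obtain ⟨Q⟩ : Nonempty (Sylow q G) := inferInstance
          rw [← Q.card_eq_multiplicity]
          refine Subgroup.card_dvd_of_le fun b hb => Subgroup.mem_centralizer_singleton_iff.2 ?_
          exact (Subgroup.commute_of_normal_of_disjoint _ _ (hn p P) (hn q Q)
            (IsPGroup.disjoint_of_ne p q (Ne.symm hqp) _ _ P.isPGroup' Q.isPGroup') (r : G) b hra hb).symm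
      · simp [Nat.factorization_eq_zero_of_not_prime _ hq]
    exact (Subgroup.mem_centralizer_singleton_iff.1 (htop ▸ Subgroup.mem_top g))
  refine le_antisymm ?_ ((Nat.factorization_le_iff_dvd Nat.card_pos.ne' Nat.card_pos.ne').2
    (Subgroup.card_dvd_of_le (Subgroup.center_le_centralizer _)) p)
  refine ((Fact.out : p.Prime).pow_dvd_iff_le_factorization Nat.card_pos.ne').1 ?_
  rw [← R.card_eq_multiplicity, ← Subgroup.card_map_of_injective C.subtype_injective]
  exact Subgroup.card_dvd_of_le hRZ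

/-- Sylow subgroups are normal when the count is the one of a nilpotent group. -/
theorem sylow_normal (P : Sylow p G)
    (hp : (cnt p G).factorization p = (Nat.card (Subgroup.center G)).factorization p)
    (hq : ∀ q : ℕ, q.Prime → q ≠ p → (cnt p G).factorization q = (Nat.card G).factorization q) :
    (P : Subgroup G).Normal := by
  classical
  have hpp : p.Prime := Fact.out
  set C := Subgroup.centralizer ((P : Subgroup G) : Set G)
  set Z := (P : Subgroup G) ⊓ Subgroup.center G with hZ
  haveI : Z.Normal := ⟨fun a ha g => by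
    rw [Subgroup.mem_center_iff.1 ha.2 g, mul_inv_cancel_right]; exact ha⟩
  set a := (Nat.card (Subgroup.center G)).factorization p
  have hZcard : Nat.card Z = p ^ a := by
    obtain ⟨R⟩ : Nonempty (Sylow p (Subgroup.center G)) := inferInstance
    obtain ⟨Q, hQ⟩ := (R.isPGroup'.map (Subgroup.center G).subtype).exists_le_sylow
    obtain ⟨g, hg⟩ := MulAction.exists_smul_eq G Q P
    have hle : (R : Subgroup (Subgroup.center G)).map (Subgroup.center G).subtype ≤ Z := by
      rintro y ⟨r, hr, rfl⟩
      refine ⟨?_, r.2⟩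
      rw [← hg, Sylow.coe_subgroup_smul]
      refine ⟨r, hQ ⟨r, hr, rfl⟩, ?_⟩
      show g * (r : G) * g⁻¹ = r
      rw [Subgroup.mem_center_iff.1 r.2 g, mul_inv_cancel_right]
    obtain ⟨k, hk⟩ := IsPGroup.iff_card.1 (P.isPGroup'.to_le (inf_le_left : Z ≤ P))
    refine le_antisymm ?_ ?_
    · rw [hk]
      refine Nat.pow_le_pow_right hpp.pos ((hpp.pow_dvd_iff_le_factorization Nat.card_pos.ne').1 ?_)
      rw [← hk]
      exact Subgroup.card_dvd_of_le inf_le_right
    · rw [← R.card_eq_multiplicity, ← Subgroup.card_map_of_injective (Subgroup.center G).subtype_injective]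
      exact Subgroup.card_le_of_le hle
  -- the count
  have hS0 : cnt p G ≠ 0 := by
    haveI : Nonempty {x : G // ¬ p ∣ csize x} := ⟨⟨1, by
      rw [(csize_eq_one_iff 1).2 (Subgroup.one_mem _)]; exact hpp.not_dvd_one⟩⟩
    exact Nat.card_pos.ne'
  have hSeq : cnt p G * Nat.card P = Nat.card G * Nat.card Z := by
    refine Nat.eq_of_factorization_eq (Nat.mul_ne_zero hS0 Nat.card_pos.ne')
      (Nat.mul_ne_zero Nat.card_pos.ne' Nat.card_pos.ne') fun q => ?_
    rw [Nat.factorization_mul hS0 Nat.card_pos.ne', Nat.factorization_mul Nat.card_pos.ne' Nat.card_pos.ne',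
      Finsupp.add_apply, Finsupp.add_apply, P.card_eq_multiplicity, hZcard, hpp.factorization_pow,
      hpp.factorization_pow]
    by_cases hqp : q = p
    · subst hqp
      rw [hp, Finsupp.single_eq_same, Finsupp.single_eq_same, add_comm]
    · rw [Finsupp.single_eq_of_ne hqp, Finsupp.single_eq_of_ne hqp]
      by_cases hqq : q.Prime
      · rw [hq q hqq hqp]
      · simp [Nat.factorization_eq_zero_of_not_prime _ hqq]
  -- the action on cosets of `Z`
  have hinv : ∀ x z : G, z ∈ Z → Subgroup.centralizer ({x * z} : Set G) = Subgroup.centralizer ({x} : Set G) := by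
    intro x z hz
    ext g
    rw [Subgroup.mem_centralizer_singleton_iff, Subgroup.mem_centralizer_singleton_iff, ← mul_assoc,
      mul_assoc x z g, ← Subgroup.mem_center_iff.1 hz.2 g, ← mul_assoc]
    exact mul_left_inj z
  let good : Set (G ⧸ Z) := {y | ¬ p ∣ csize y.out}
  have hgood : ∀ x : G, (x : G ⧸ Z) ∈ good ↔ ¬ p ∣ csize x := by
    intro x
    obtain ⟨z, hz⟩ := QuotientGroup.mk_out_eq_mul Z x
    show ¬ p ∣ csize (x : G ⧸ Z).out ↔ _
    rw [hz, csize_eq_index, csize_eq_index, hinv x z z.2]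
  letI : MulAction ↥(P : Subgroup G) ↥good :=
    { smul := fun u y => ⟨((u : G) : G ⧸ Z) * y.1 * ((u : G) : G ⧸ Z)⁻¹, by
        obtain ⟨x, hx⟩ := QuotientGroup.mk_surjective (y : G ⧸ Z)
        rw [← hx, ← QuotientGroup.mk_inv, ← QuotientGroup.mk_mul, ← QuotientGroup.mk_mul, hgood]
        have h1 := y.2
        rw [← hx, hgood] at h1
        have : ConjClasses.mk ((u : G) * x * (u : G)⁻¹) = ConjClasses.mk x :=
          ConjClasses.mk_eq_mk_iff_isConj.2 (isConj_iff.2 ⟨(u : G)⁻¹, by group⟩)
        unfold csize at h1 ⊢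
        rwa [this]⟩
      one_smul := fun y => Subtype.ext (by
        show ((1 : G) : G ⧸ Z) * y.1 * ((1 : G) : G ⧸ Z)⁻¹ = y.1
        simp)
      mul_smul := fun u v y => Subtype.ext (by
        show ((u * v : G) : G ⧸ Z) * y.1 * ((u * v : G) : G ⧸ Z)⁻¹ =
          ((u : G) : G ⧸ Z) * (((v : G) : G ⧸ Z) * y.1 * ((v : G) : G ⧸ Z)⁻¹) * ((u : G) : G ⧸ Z)⁻¹
        rw [QuotientGroup.mk_mul]
        group) }
  have hcnt : cnt p G = Nat.card Z * Nat.card good := by
    rw [← QuotientGroup.card_preimage_mk]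
    exact Nat.card_congr (Equiv.subtypeEquivRight fun x => (hgood x).symm)
  set fx : Set (G ⧸ Z) := Subtype.val '' MulAction.fixedPoints ↥(P : Subgroup G) ↥good
  have hfix : ∀ x : G, x ∈ C ↔ (x : G ⧸ Z) ∈ fx := by
    intro x
    constructor
    · intro hx
      refine ⟨⟨_, (hgood x).2 (not_dvd_of_le P (le_cent_iff.2 hx))⟩, fun u => Subtype.ext ?_, rfl⟩
      show ((u : G) : G ⧸ Z) * (x : G ⧸ Z) * ((u : G) : G ⧸ Z)⁻¹ = x
      rw [← QuotientGroup.mk_inv, ← QuotientGroup.mk_mul, ← QuotientGroup.mk_mul,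
        Subgroup.mem_centralizer_iff.1 hx u u.2, mul_inv_cancel_right]
    · rintro ⟨y, hy, hyx⟩
      have hxg : ¬ p ∣ csize x := (hgood x).1 (hyx ▸ y.2)
      refine le_cent_iff.1 fun u hu => ?_
      have h1 : ((u : G) : G ⧸ Z) * (x : G ⧸ Z) * ((u : G) : G ⧸ Z)⁻¹ = x :=
        hyx ▸ congrArg Subtype.val (hy ⟨u, hu⟩)
      rw [← QuotientGroup.mk_inv, ← QuotientGroup.mk_mul, ← QuotientGroup.mk_mul, eq_comm,
        QuotientGroup.eq] at h1
      set D := Subgroup.centralizer ({x} : Set G)
      have hD : Subgroup.centralizer ({u * x * u⁻¹} : Set G) = D := by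
        have h2 := hinv x _ h1
        rwa [mul_inv_cancel_left] at h2
      have huD : u ∈ Subgroup.normalizer (D : Set G) := by
        refine Subgroup.mem_normalizer_iff.2 fun g => ?_
        conv_rhs => rw [← hD]
        rw [Subgroup.mem_centralizer_singleton_iff, Subgroup.mem_centralizer_singleton_iff, conj_mul, conj_mul]
        exact ((mul_left_inj _).trans (mul_right_inj _)).symm
      -- a `p`-element normalising a subgroup of index prime to `p` lies in it
      have hsub : Subgroup.zpowers u ⊓ Subgroup.normalizer (D : Set G) ≤ D := by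
        haveI : (D.subgroupOf (Subgroup.normalizer (D : Set G))).Normal := Subgroup.normal_in_normalizer
        intro w hw
        have hidx : ¬ p ∣ (D.subgroupOf (Subgroup.normalizer (D : Set G))).index := by
          rw [csize_eq_index] at hxg
          exact fun h => hxg (h.trans (Dvd.intro _ (Subgroup.relIndex_mul_index (H := D) Subgroup.le_normalizer)))
        obtain ⟨k, hk⟩ := P.isPGroup' ⟨w, (Subgroup.zpowers_le.2 hu) hw.1⟩
        have hw1 : w ^ p ^ k = 1 := congrArg Subtype.val hk
        set w' : Subgroup.normalizer (D : Set G) ⧸ D.subgroupOf (Subgroup.normalizer (D : Set G)) :=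
          QuotientGroup.mk ⟨w, hw.2⟩
        have h3 : orderOf w' ∣ p ^ k := orderOf_dvd_of_pow_eq_one (by
          rw [← QuotientGroup.mk_pow, QuotientGroup.eq_one_iff, Subgroup.mem_subgroupOf,
            SubmonoidClass.coe_pow, hw1]
          exact D.one_mem)
        obtain ⟨j, -, hj⟩ := (Nat.dvd_prime_pow hpp).1 h3
        rcases Nat.eq_zero_or_pos j with rfl | hjpos
        · rw [pow_zero, orderOf_eq_one_iff, QuotientGroup.eq_one_iff, Subgroup.mem_subgroupOf] at hj
          exact hj
        · exact absurd ((dvd_pow_self p hjpos.ne').trans (hj ▸ orderOf_dvd_natCard w')) hidx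
      exact hsub ⟨Subgroup.mem_zpowers u, huD⟩
  have hCcard : Nat.card C = Nat.card Z * Nat.card (MulAction.fixedPoints ↥(P : Subgroup G) ↥good) := by
    rw [← Nat.card_image_of_injective Subtype.val_injective, ← QuotientGroup.card_preimage_mk]
    exact Nat.card_congr (Equiv.subtypeEquivRight hfix)
  -- `Z(P) = Z`
  have hcop : ¬ p ∣ Nat.card good := by
    intro hd
    have h1 : p ^ (a + 1) ∣ cnt p G := by
      rw [hcnt, hZcard, pow_succ]
      exact Nat.mul_dvd_mul_left _ hd
    have := (hpp.pow_dvd_iff_le_factorization hS0).1 h1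
    omega
  have hPC : (P : Subgroup G) ⊓ C = Z := by
    refine (Subgroup.eq_of_le_of_card_ge (inf_le_inf_left _ (Subgroup.center_le_centralizer _)) ?_).symm
    obtain ⟨k, hk⟩ := IsPGroup.iff_card.1 (P.isPGroup'.to_le (inf_le_left : (P : Subgroup G) ⊓ C ≤ P))
    rw [hk, hZcard]
    refine Nat.pow_le_pow_right hpp.pos (Nat.le_of_not_lt fun hlt => hcop ?_)
    have h1 : p ^ (a + 1) ∣ Nat.card C :=
      ((pow_dvd_pow p hlt).trans (hk ▸ Subgroup.card_dvd_of_le inf_le_right))
    rw [hCcard, hZcard, pow_succ] at h1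
    have h2 := Nat.dvd_of_mul_dvd_mul_left (pow_pos hpp.pos a) h1
    exact ((P.isPGroup'.card_modEq_card_fixedPoints ↥good).dvd_iff dvd_rfl).2 h2
  -- counting conjugates of centralizers
  set N := Subgroup.normalizer ((P : Subgroup G) : Set G) with hN
  by_contra hnn
  have hNtop : N ≠ ⊤ := fun h => hnn (Subgroup.normalizer_eq_top_iff.1 h)
  have hmem : ∀ (y : G ⧸ N) (c : C), ¬ p ∣ csize (y.out * c * y.out⁻¹) := by
    intro y c
    have : ConjClasses.mk (y.out * (c : G) * y.out⁻¹) = ConjClasses.mk (c : G) :=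
      ConjClasses.mk_eq_mk_iff_isConj.2 (isConj_iff.2 ⟨y.out⁻¹, by group⟩)
    have h1 := not_dvd_of_le P (le_cent_iff.2 c.2)
    unfold csize at h1 ⊢
    rwa [this]
  let F : (G ⧸ N) × C → {x : G // ¬ p ∣ csize x} := fun yc => ⟨_, hmem yc.1 yc.2⟩
  have hsurj : Function.Surjective F := by
    rintro ⟨x, hx⟩
    obtain ⟨Q, hQ⟩ := exists_sylow_le hx
    obtain ⟨g, hg⟩ := MulAction.exists_smul_eq G P Q
    obtain ⟨n, hn⟩ := QuotientGroup.mk_out_eq_mul N g
    set t := (g : G ⧸ N).out with ht
    have hc : t⁻¹ * x * t ∈ C := by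
      refine Subgroup.mem_centralizer_iff.2 fun w hw => ?_
      have h3 : g * ((n : G) * w * (n : G)⁻¹) * g⁻¹ ∈ (Q : Subgroup G) := by
        rw [← hg, Sylow.coe_subgroup_smul]
        exact ⟨_, (Subgroup.mem_normalizer_iff.1 n.2 w).1 hw, rfl⟩
      have h4 : g * ((n : G) * w * (n : G)⁻¹) * g⁻¹ = t * w * t⁻¹ := by rw [hn]; group
      rw [h4] at h3
      have h5 := Subgroup.mem_centralizer_singleton_iff.1 (hQ h3)
      calc w * (t⁻¹ * x * t) = t⁻¹ * (t * w * t⁻¹ * x) * t := by group
        _ = t⁻¹ * (x * (t * w * t⁻¹)) * t := by rw [h5]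
        _ = t⁻¹ * x * t * w := by group
    exact ⟨((g : G ⧸ N), ⟨_, hc⟩), Subtype.ext (by show t * (t⁻¹ * x * t) * t⁻¹ = x; group)⟩
  have hlt : cnt p G < N.index * Nat.card C := by
    rw [Subgroup.index, ← Nat.card_prod]
    refine lt_of_le_of_ne (Nat.card_le_card_of_surjective F hsurj) fun he => ?_
    have hinj := (hsurj.bijective_of_nat_card_le he.ge).1
    obtain ⟨g, hg⟩ : ∃ g : G, g ∉ N := by
      by_contra! h
      exact hNtop ((Subgroup.eq_top_iff' N).2 h)
    have h1 := @hinj ((g : G ⧸ N), ⟨1, C.one_mem⟩) (((1 : G) : G ⧸ N), ⟨1, C.one_mem⟩)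
      (Subtype.ext (by simp [F]))
    have h2 := QuotientGroup.eq.1 (congrArg Prod.fst h1)
    rw [mul_one, inv_mem_iff] at h2
    exact hg h2
  have hCN : C ≤ N := Subgroup.centralizer_le_normalizer _
  have e1 : Nat.card Z * (P : Subgroup G).relIndex C = Nat.card C := by
    rw [← hPC, ← Subgroup.inf_relIndex_right (P : Subgroup G) C, Subgroup.relIndex,
      ← Nat.card_congr (Subgroup.subgroupOfEquivOfLe (inf_le_right : (P : Subgroup G) ⊓ C ≤ C)).toEquiv,
      Subgroup.card_mul_index]
  have e2 : Nat.card P * (P : Subgroup G).relIndex N = Nat.card N := by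
    rw [Subgroup.relIndex,
      ← Nat.card_congr (Subgroup.subgroupOfEquivOfLe (Subgroup.le_normalizer : (P : Subgroup G) ≤ N)).toEquiv,
      Subgroup.card_mul_index]
  have e3 : (P : Subgroup G).relIndex C ≤ (P : Subgroup G).relIndex N :=
    Subgroup.relIndex_le_of_le_right hCN (Subgroup.index_ne_zero_of_finite)
  have e4 : Nat.card C * Nat.card P ≤ Nat.card Z * Nat.card N := by
    rw [← e1, ← e2, mul_assoc, mul_comm ((P : Subgroup G).relIndex C) (Nat.card P)]
    exact Nat.mul_le_mul_left _ (Nat.mul_le_mul_left _ e3)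
  have e5 := Nat.mul_lt_mul_of_pos_right hlt (Nat.card_pos : 0 < Nat.card P)
  rw [hSeq, mul_assoc, ← Subgroup.card_mul_index N] at e5
  have e6 := Nat.mul_le_mul_left N.index e4
  rw [mul_left_comm, ← mul_assoc] at e6
  nlinarith

end

theorem main {G H : Type*} [Group G] [Finite G] [Group H] [Finite H] (hH : Group.IsNilpotent H)
    (h : ∀ k : ℕ, Nat.card {C : ConjClasses G // Nat.card C.carrier = k} =
      Nat.card {C : ConjClasses H // Nat.card C.carrier = k}) : Group.IsNilpotent G := by
  obtain ⟨e, he⟩ := exists_equiv h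
  have hcard : Nat.card G = Nat.card H := Nat.card_congr e
  have hz : Nat.card (Subgroup.center G) = Nat.card (Subgroup.center H) := Nat.card_congr
    (e.subtypeEquiv fun x => by rw [← csize_eq_one_iff, ← csize_eq_one_iff, he])
  refine (Group.isNilpotent_of_finite_tfae.out 0 3).2 ?_
  intro p hp P
  have hc : cnt p G = cnt p H := Nat.card_congr (e.subtypeEquiv fun x => by rw [he])
  obtain ⟨-, h1, h2⟩ := cnt_nilpotent (p := p) hH
  exact sylow_normal P (by rw [hc, hz, h1]) (fun q hq hqp => by rw [hc, hcard, h2 q hq hqp])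

end CfsgLib.SameClassSizes
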